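import Cfsg.Agent.H557.Bs.Red

/-! # S5733, BS26: reducible subgroups of the special unitary group (from the counts BS06 and BS11) -/

set_option autoImplicit false
set_option linter.unusedSectionVars false

namespace Cfsg.Agent.H557.Bs

open Cfsg.Agent.H847.Bs

universe u v

/-- BS11 -/
def HCnt (c : ℝ) (K₀ : ℕ) : Prop :=
  ∀ (r : ℕ) (F : Type u) (V : Type v) [Field F] [Finite F] [AddCommGroup V] [Module F V] [Module.Finite F V]
    (Φ : Frm F V), IsHerm r Φ → ∀ n K : ℕ, K₀ ≤ K → Module.finrank F V = n → 2 * K < n →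
    c / (K + 1) * (Nat.card Φ.Iso : ℝ) ≤ Nat.card ↥(Φ.SS K n)

/-- BS06 (1) -/
def HBm : Prop :=
  ∀ (r : ℕ) (F : Type u) (V : Type v) [Field F] [Finite F] [AddCommGroup V] [Module F V] [Module.Finite F V]
    (Φ : Frm F V), IsHerm r Φ → ∀ d : ℕ, Module.finrank F V = d → Odd d →
    ar d / d * (Nat.card Φ.Iso : ℝ) ≤ Nat.card Φ.Bm

/-- BS06 (3) -/
def HAdj : Prop :=
  ∀ (r : ℕ) (F : Type u) (V : Type v) [Field F] [Finite F] [AddCommGroup V] [Module F V] [Module.Finite F V]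
    (Φ : Frm F V), IsHerm r Φ → ∀ d : ℕ, Module.finrank F V = d → Odd d → 9 ≤ d → ∀ κ : F, κ ^ (r + 1) = 1 →
    Nat.card Φ.Iso ≤ 4 * d * (r + 1) * Nat.card {x : V ≃ₗ[F] V // x ∈ Φ.Bm ∧ LinearMap.det (x : V →ₗ[F] V) = κ}

section Herm

variable {F : Type u} {V : Type v} [Field F] [Finite F] [AddCommGroup V] [Module F V] [Module.Finite F V]
  {Φ : Frm F V} {r : ℕ}

theorem SS_spec {U : Submodule F V} {K n : ℕ} {y : U ≃ₗ[F] U} (h : y ∈ (Φ.on U).SS K n) :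
    ∀ Z : Submodule F U, Inv y Z → Z ≠ ⊥ → K < Module.finrank F Z := h.2.1

/-- small `m` -/
theorem small {c : ℝ} (_hc : 0 < c) {K₀ : ℕ} (hcnt : HCnt.{u, v} c K₀) (hadj : HAdj.{u, v}) (M₀ : ℕ)
    (hΦ : IsHerm r Φ) (hn : 3 * (K₀ + 2 * M₀ + 9) < Module.finrank F V) {m : ℕ} (hm : 1 ≤ m)
    (hmM : m ≤ M₀) :
    c / ((K₀ + 2 * M₀ + 10) * (4 * (2 * M₀ + 9))) * (Nat.card (SU Φ) : ℝ) ≤ Nat.card (Good Φ m) := by
  obtain ⟨W, U, hdec, hW, hU⟩ := exists_dec hΦ (2 * M₀ + 9) (by omega)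
  have hUh : IsHerm r (Φ.on U) := IsHerm.on hΦ (dec_nd_right hΦ.nd hdec)
  have hWh : IsHerm r (Φ.on W) := IsHerm.on hΦ (dec_nd_left hΦ.nd hdec)
  set K := K₀ + 2 * M₀ + 9 with hK
  have h1 := hcnt r F U (Φ.on U) hUh _ K (by omega) rfl (by omega)
  set Y := (Φ.on U).SS K (Module.finrank F U) with hY
  have hYI : Y ⊆ (Φ.on U).Iso := fun y hy => hy.1
  have hYs : ∀ y ∈ Y, ∀ Z : Submodule F U, Inv y Z → Z ≠ ⊥ → K < Module.finrank F Z := fun y hy => hy.2.1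
  have h2 := count_B hΦ hdec hYI hYs (by omega) (by omega) (fun κ hκ =>
    hadj r F W (Φ.on W) hWh _ rfl (by rw [hW]; exact ⟨M₀ + 4, by ring⟩) (by omega) κ hκ)
  have h3 : CS Φ hdec ((Φ.on W).Bm) Y ⊆ Good Φ m := by
    intro y hy
    refine ⟨CS_sub_SU hdec (fun w hw => hw.1) hYI hy, ?_⟩
    refine CS_sub hdec (P := fun x => ∀ Z : Submodule F V, Inv x Z → Module.finrank F Z ≠ m) ?_ ?_ hy
    · intro g x hx Z hZ
      have := hx _ (inv_back hZ)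
      rwa [finrank_map] at this
    · intro x hx Z hZ
      exact ES_B_good hdec hYs (by omega) (by omega) (by omega) hx hZ
  have h4 : Nat.card (CS Φ hdec ((Φ.on W).Bm) Y) ≤ Nat.card (Good Φ m) := Nat.card_mono (Set.toFinite _) h3
  have h5 : 0 < (Nat.card (Φ.on U).Iso : ℝ) := by exact_mod_cast Nat.card_pos
  have h6 : (Nat.card (SU Φ) : ℝ) * Nat.card Y ≤
      4 * (2 * M₀ + 9) * Nat.card (Φ.on U).Iso * Nat.card (Good Φ m) := by
    have h7 := h2.trans (Nat.mul_le_mul_left _ h4)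
    rw [hW] at h7
    exact_mod_cast h7
  have h8 : (Nat.card (SU Φ) : ℝ) * (c / (K + 1) * (Nat.card (Φ.on U).Iso : ℝ)) ≤
      4 * (2 * M₀ + 9) * Nat.card (Φ.on U).Iso * Nat.card (Good Φ m) :=
    (mul_le_mul_of_nonneg_left h1 (Nat.cast_nonneg _)).trans h6
  have h9 : (Nat.card (SU Φ) : ℝ) * (c / (K + 1)) ≤ 4 * (2 * M₀ + 9) * Nat.card (Good Φ m) := by
    refine le_of_mul_le_mul_right ?_ h5
    calc (Nat.card (SU Φ) : ℝ) * (c / (K + 1)) * (Nat.card (Φ.on U).Iso : ℝ)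
        = (Nat.card (SU Φ) : ℝ) * (c / (K + 1) * (Nat.card (Φ.on U).Iso : ℝ)) := by ring
      _ ≤ _ := h8
      _ = _ := by ring
  have hK' : ((K : ℕ) : ℝ) + 1 = K₀ + 2 * M₀ + 10 := by rw [hK]; push_cast; ring
  rw [hK'] at h9
  rw [div_mul_eq_mul_div, div_le_iff₀ (by positivity)]
  rw [mul_div_assoc', div_le_iff₀ (by positivity)] at h9
  linarith

/-- medium `m` -/
theorem medium {c : ℝ} (hc : 0 < c) {K₀ : ℕ} (hcnt : HCnt.{u, v} c K₀)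
    (hΦ : IsHerm r Φ) {m : ℕ} (hm : 2 ≤ m) (hmK : K₀ ≤ m) (hn : 3 * m ≤ Module.finrank F V) :
    c / 3 * (Nat.card (SU Φ) : ℝ) ≤ Nat.card (Good Φ m) := by
  classical
  have key : ∀ s : ℕ, 1 ≤ s → s < m → ∃ C : Set (V ≃ₗ[F] V), C ⊆ Good Φ m ∧ (∀ x ∈ C, Tp m s x) ∧
      c / (m + 1) * (Nat.card (SU Φ) : ℝ) ≤ Nat.card C := by
    intro s hs hsm
    obtain ⟨W, U, hdec, hW, hU⟩ := exists_dec hΦ s (by omega)
    have hUh : IsHerm r (Φ.on U) := IsHerm.on hΦ (dec_nd_right hΦ.nd hdec)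
    have h1 := hcnt r F U (Φ.on U) hUh _ m hmK rfl (by omega)
    set Y := (Φ.on U).SS m (Module.finrank F U) with hY
    have hYI : Y ⊆ (Φ.on U).Iso := fun y hy => hy.1
    have hYs : ∀ y ∈ Y, ∀ Z : Submodule F U, Inv y Z → Z ≠ ⊥ → m < Module.finrank F Z := fun y hy => hy.2.1
    have h2 := count_A hΦ hdec hYI hYs (by omega) (by omega)
    have h3 : ∀ x ∈ CS Φ hdec ((Φ.on W).Iso : Set _) Y, Tp m s x := fun y hy =>
      CS_sub hdec (P := Tp m s) (fun g x hx => hx.conj g)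
        (fun x hx => by have := ES_Tp hdec hYs hx; rwa [hW] at this) hy
    refine ⟨CS Φ hdec ((Φ.on W).Iso : Set _) Y, ?_, h3, ?_⟩
    · intro y hy
      exact ⟨CS_sub_SU hdec (fun w hw => hw) hYI hy, fun Z hZ => Tp_good (h3 y hy) hsm hZ⟩
    · have h5 : 0 < (Nat.card (Φ.on U).Iso : ℝ) := by exact_mod_cast Nat.card_pos
      have h6 : (Nat.card (SU Φ) : ℝ) * Nat.card Y ≤
          Nat.card (Φ.on U).Iso * Nat.card (CS Φ hdec ((Φ.on W).Iso : Set _) Y) := by exact_mod_cast h2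
      have h8 := (mul_le_mul_of_nonneg_left h1 (Nat.cast_nonneg (Nat.card (SU Φ)))).trans h6
      refine le_of_mul_le_mul_right ?_ h5
      calc c / (m + 1) * (Nat.card (SU Φ) : ℝ) * (Nat.card (Φ.on U).Iso : ℝ)
          = (Nat.card (SU Φ) : ℝ) * (c / (m + 1) * (Nat.card (Φ.on U).Iso : ℝ)) := by ring
        _ ≤ _ := h8
        _ = _ := by ring
  choose! C hC1 hC2 hC3 using key
  have h1 := sum_card_le (Finset.Ico 1 m) C (Good Φ m)
    (fun i hi => hC1 i (Finset.mem_Ico.1 hi).1 (Finset.mem_Ico.1 hi).2)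
    (fun i hi j hj x hx hx' => (hC2 i (Finset.mem_Ico.1 hi).1 (Finset.mem_Ico.1 hi).2 x hx).unique
      (hC2 j (Finset.mem_Ico.1 hj).1 (Finset.mem_Ico.1 hj).2 x hx') (Finset.mem_Ico.1 hi).2.le
      (Finset.mem_Ico.1 hj).2.le)
  have h2 : ∑ i ∈ Finset.Ico 1 m, c / (m + 1) * (Nat.card (SU Φ) : ℝ) ≤
      ∑ i ∈ Finset.Ico 1 m, (Nat.card (C i) : ℝ) :=
    Finset.sum_le_sum fun i hi => hC3 i (Finset.mem_Ico.1 hi).1 (Finset.mem_Ico.1 hi).2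
  rw [Finset.sum_const, Nat.card_Ico, nsmul_eq_mul] at h2
  have h3 : (∑ i ∈ Finset.Ico 1 m, (Nat.card (C i) : ℝ)) ≤ Nat.card (Good Φ m) := by exact_mod_cast h1
  refine le_trans ?_ (h2.trans h3)
  rw [Nat.cast_sub (by omega), Nat.cast_one]
  have h4 : (2 : ℝ) ≤ m := by exact_mod_cast hm
  have h5 : c / 3 ≤ ((m : ℝ) - 1) * (c / (m + 1)) := by
    rw [mul_div_assoc', div_le_div_iff₀ (by norm_num) (by linarith)]
    nlinarith
  calc c / 3 * (Nat.card (SU Φ) : ℝ) ≤ ((m : ℝ) - 1) * (c / (m + 1)) * (Nat.card (SU Φ) : ℝ) :=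
        mul_le_mul_of_nonneg_right h5 (Nat.cast_nonneg _)
    _ = _ := by ring

theorem ar_ge {d : ℕ} (hd : 16 ≤ d) : 1 / 2 ≤ ar d := by
  have h1 : (4 / 5 : ℝ) ^ d ≤ (4 / 5 : ℝ) ^ 16 := pow_le_pow_of_le_one (by norm_num) (by norm_num) hd
  have h2 : (4 / 5 : ℝ) ^ 16 ≤ 1 / 32 := by norm_num
  unfold ar
  linarith

/-- large `m` -/
theorem large (hBm : HBm.{u, v}) (hΦ : IsHerm r Φ) {m : ℕ} (hn : Module.finrank F V ≤ 3 * m)
    (hm : 2 * m ≤ Module.finrank F V) (h32 : 32 ≤ Module.finrank F V) :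
    1 / 24 * (Nat.card (SU Φ) : ℝ) ≤ Nat.card (Good Φ m) := by
  classical
  set n := Module.finrank F V with hn'
  have key : ∀ j : ℕ, (n - m + 1) / 2 ≤ j → j < n / 2 → ∃ C : Set (V ≃ₗ[F] V), C ⊆ Good Φ m ∧
      (∀ x ∈ C, Ti m (2 * j + 1) x) ∧ 1 / (2 * n) * (Nat.card (SU Φ) : ℝ) ≤ Nat.card C := by
    intro j hj hj'
    obtain ⟨W, U, hdec, hW, hU⟩ := exists_dec hΦ (n - (2 * j + 1)) (by omega)
    have hU' : Module.finrank F U = 2 * j + 1 := by omega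
    have hUh : IsHerm r (Φ.on U) := IsHerm.on hΦ (dec_nd_right hΦ.nd hdec)
    have h1 := hBm r F U (Φ.on U) hUh _ hU' ⟨j, rfl⟩
    have h2 := count_C hΦ hdec (by omega) (by omega)
    have h3 : ∀ x ∈ CS Φ hdec ((Φ.on W).Iso : Set _) ((Φ.on U).Bm), Ti m (2 * j + 1) x := fun y hy =>
      CS_sub hdec (P := Ti m (2 * j + 1)) (fun g x hx => hx.conj g)
        (fun x hx => by have := ES_Ti (m := m) hdec (by omega) (by omega) (by omega) hx; rwa [hU'] at this) hy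
    refine ⟨CS Φ hdec ((Φ.on W).Iso : Set _) ((Φ.on U).Bm), ?_, h3, ?_⟩
    · intro y hy
      exact ⟨CS_sub_SU hdec (fun w hw => hw) (fun w hw => hw.1) hy, fun Z hZ => (h3 y hy).2.2 Z hZ⟩
    · have h5 : 0 < (Nat.card (Φ.on U).Iso : ℝ) := by exact_mod_cast Nat.card_pos
      have h6 : (Nat.card (SU Φ) : ℝ) * Nat.card ((Φ.on U).Bm) ≤
          Nat.card (Φ.on U).Iso * Nat.card (CS Φ hdec ((Φ.on W).Iso : Set _) ((Φ.on U).Bm)) := by
        exact_mod_cast h2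
      have h7 : (1 : ℝ) / (2 * n) ≤ ar (2 * j + 1) / ((2 * j + 1 : ℕ) : ℝ) := by
        have h8 := ar_ge (d := 2 * j + 1) (by omega)
        have h9 : ((2 * j + 1 : ℕ) : ℝ) ≤ n := by exact_mod_cast (by omega : 2 * j + 1 ≤ n)
        have h10 : (0 : ℝ) < ((2 * j + 1 : ℕ) : ℝ) := by positivity
        have h11 : (0 : ℝ) < n := lt_of_lt_of_le h10 h9
        rw [div_le_div_iff₀ (by positivity) h10]
        nlinarith
      have h8 := (mul_le_mul_of_nonneg_left h1 (Nat.cast_nonneg (Nat.card (SU Φ)))).trans h6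
      refine le_of_mul_le_mul_right ?_ h5
      calc (1 : ℝ) / (2 * n) * (Nat.card (SU Φ) : ℝ) * (Nat.card (Φ.on U).Iso : ℝ)
          ≤ ar (2 * j + 1) / ((2 * j + 1 : ℕ) : ℝ) * (Nat.card (SU Φ) : ℝ) * (Nat.card (Φ.on U).Iso : ℝ) := by
            gcongr
        _ = (Nat.card (SU Φ) : ℝ) * (ar (2 * j + 1) / ((2 * j + 1 : ℕ) : ℝ) * (Nat.card (Φ.on U).Iso : ℝ)) := by
            ring
        _ ≤ _ := h8
        _ = _ := by ring
  choose! C hC1 hC2 hC3 using key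
  have h1 := sum_card_le (Finset.Ico ((n - m + 1) / 2) (n / 2)) C (Good Φ m)
    (fun i hi => hC1 i (Finset.mem_Ico.1 hi).1 (Finset.mem_Ico.1 hi).2)
    (fun i hi j hj x hx hx' => by
      have := (hC2 i (Finset.mem_Ico.1 hi).1 (Finset.mem_Ico.1 hi).2 x hx).unique
        (hC2 j (Finset.mem_Ico.1 hj).1 (Finset.mem_Ico.1 hj).2 x hx')
      omega)
  have h2 : ∑ i ∈ Finset.Ico ((n - m + 1) / 2) (n / 2), 1 / (2 * (n : ℝ)) * (Nat.card (SU Φ) : ℝ) ≤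
      ∑ i ∈ Finset.Ico ((n - m + 1) / 2) (n / 2), (Nat.card (C i) : ℝ) :=
    Finset.sum_le_sum fun i hi => hC3 i (Finset.mem_Ico.1 hi).1 (Finset.mem_Ico.1 hi).2
  rw [Finset.sum_const, Nat.card_Ico, nsmul_eq_mul] at h2
  have h3 : (∑ i ∈ Finset.Ico ((n - m + 1) / 2) (n / 2), (Nat.card (C i) : ℝ)) ≤ Nat.card (Good Φ m) := by
    exact_mod_cast h1
  refine le_trans ?_ (h2.trans h3)
  have h4 : n ≤ 12 * (n / 2 - (n - m + 1) / 2) := by omega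
  have h5 : (n : ℝ) ≤ 12 * ((n / 2 - (n - m + 1) / 2 : ℕ) : ℝ) := by exact_mod_cast h4
  have h6 : (0 : ℝ) < n := by exact_mod_cast (by omega : 0 < n)
  have h7 : (1 : ℝ) / 24 ≤ ((n / 2 - (n - m + 1) / 2 : ℕ) : ℝ) * (1 / (2 * n)) := by
    rw [mul_one_div, div_le_div_iff₀ (by norm_num) (by positivity)]
    linarith
  calc (1 : ℝ) / 24 * (Nat.card (SU Φ) : ℝ)
      ≤ ((n / 2 - (n - m + 1) / 2 : ℕ) : ℝ) * (1 / (2 * n)) * (Nat.card (SU Φ) : ℝ) :=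
        mul_le_mul_of_nonneg_right h7 (Nat.cast_nonneg _)
    _ = _ := by ring

theorem Good_perp (hΦ : IsHerm r Φ) {m : ℕ} (hm : m ≤ Module.finrank F V) :
    Good Φ (Module.finrank F V - m) ⊆ Good Φ m := by
  rintro x ⟨hx, h⟩
  refine ⟨hx, fun Y hY hYm => ?_⟩
  have h1 := finrank_perp hΦ Y
  exact h _ (inv_perp hx.1 hY) (by omega)

end Herm

/-- BS26, by dimension: many elements of `SU(V)` have no invariant subspace of dimension `m` -/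
theorem su_dim (hcnt : ∃ c : ℝ, 0 < c ∧ ∃ K₀ : ℕ, HCnt.{u, v} c K₀) (hBm : HBm.{u, v}) (hadj : HAdj.{u, v}) :
    ∃ c : ℝ, 0 < c ∧ ∃ n₀ : ℕ, ∀ (r : ℕ) (F : Type u) (V : Type v) [Field F] [Finite F] [AddCommGroup V]
      [Module F V] [Module.Finite F V] (Φ : Frm F V), IsHerm r Φ → n₀ ≤ Module.finrank F V →
      ∀ m : ℕ, 1 ≤ m → m < Module.finrank F V →
      c * (Nat.card ↥(Φ.Iso ⊓ slV F V) : ℝ) ≤ Nat.card {x : V ≃ₗ[F] V // x ∈ Φ.Iso ⊓ slV F V ∧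
        ∀ Y : Submodule F V, Inv x Y → Module.finrank F Y ≠ m} := by
  obtain ⟨c, hc, K₀, hcnt⟩ := hcnt
  set M₀ := K₀ + 2 with hM
  set c₁ : ℝ := c / ((K₀ + 2 * M₀ + 10) * (4 * (2 * M₀ + 9))) with hc₁
  have hc1 : 0 < c₁ := by positivity
  refine ⟨min c₁ (min (c / 3) (1 / 24)), by positivity, 3 * (K₀ + 2 * M₀ + 9) + 32, ?_⟩
  intro r F V _ _ _ _ _ Φ hΦ hn
  have main : ∀ m : ℕ, 1 ≤ m → 2 * m ≤ Module.finrank F V →
      min c₁ (min (c / 3) (1 / 24)) * (Nat.card (SU Φ) : ℝ) ≤ Nat.card (Good Φ m) := by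
    intro m hm1 hm2
    have hpos : (0 : ℝ) ≤ Nat.card (SU Φ) := Nat.cast_nonneg _
    rcases Nat.lt_or_ge M₀ m with h | h
    · rcases Nat.lt_or_ge (3 * m) (Module.finrank F V) with h' | h'
      · exact (mul_le_mul_of_nonneg_right ((min_le_right _ _).trans (min_le_left _ _)) hpos).trans
          (medium hc hcnt hΦ (by omega) (by omega) h'.le)
      · exact (mul_le_mul_of_nonneg_right ((min_le_right _ _).trans (min_le_right _ _)) hpos).trans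
          (large hBm hΦ h' hm2 (by omega))
    · refine (mul_le_mul_of_nonneg_right (min_le_left _ _) hpos).trans ?_
      have := small hc hcnt hadj M₀ hΦ (by omega) hm1 h
      exact this
  intro m hm1 hm2
  rcases Nat.lt_or_ge (Module.finrank F V) (2 * m) with h | h
  · refine (main (Module.finrank F V - m) (by omega) (by omega)).trans ?_
    exact_mod_cast Nat.card_mono (Set.toFinite _) (Good_perp hΦ hm2.le)
  · exact main m hm1 h

/-- BS26 -/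
theorem su_red (hcnt : ∃ c : ℝ, 0 < c ∧ ∃ K₀ : ℕ, HCnt.{u, v} c K₀) (hBm : HBm.{u, v}) (hadj : HAdj.{u, v}) :
    ∃ c : ℝ, 0 < c ∧ ∃ n₀ : ℕ, ∀ (r : ℕ) (F : Type u) (V : Type v) [Field F] [Finite F] [AddCommGroup V]
      [Module F V] [Module.Finite F V] (Φ : Frm F V), IsHerm r Φ → n₀ ≤ Module.finrank F V →
      ∀ Y₀ : Submodule F V, Y₀ ≠ ⊥ → Y₀ ≠ ⊤ →
      c * (Nat.card ↥(Φ.Iso ⊓ slV F V) : ℝ) ≤ Nat.card {x : V ≃ₗ[F] V // x ∈ Φ.Iso ⊓ slV F V ∧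
        ∀ g : V ≃ₗ[F] V, ¬ Inv x (Y₀.map (g : V →ₗ[F] V))} := by
  obtain ⟨c, hc, n₀, h⟩ := su_dim hcnt hBm hadj
  refine ⟨c, hc, n₀, ?_⟩
  intro r F V _ _ _ _ _ Φ hΦ hn Y₀ h1 h2
  have h3 : 1 ≤ Module.finrank F Y₀ := by
    rw [Nat.one_le_iff_ne_zero]
    intro h3
    exact h1 (Submodule.finrank_eq_zero.1 h3)
  have h4 : Module.finrank F Y₀ < Module.finrank F V := Submodule.finrank_lt h2
  refine (h r F V Φ hΦ hn _ h3 h4).trans ?_
  have h5 : {x : V ≃ₗ[F] V | x ∈ Φ.Iso ⊓ slV F V ∧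
        ∀ Y : Submodule F V, Inv x Y → Module.finrank F Y ≠ Module.finrank F Y₀} ⊆
      {x : V ≃ₗ[F] V | x ∈ Φ.Iso ⊓ slV F V ∧ ∀ g : V ≃ₗ[F] V, ¬ Inv x (Y₀.map (g : V →ₗ[F] V))} := by
    rintro x ⟨hx, hx'⟩
    exact ⟨hx, fun g hg => hx' _ hg (finrank_map g Y₀)⟩
  exact_mod_cast Nat.card_mono (Set.toFinite _) h5

end Cfsg.Agent.H557.Bs
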